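import Mathlib
import Cfsg.Prelude.Def_Characters
import Cfsg.Agent.Lib.Char.CompleteCor
import Cfsg.Agent.Lib.Basic.JordanCover

/-!
# A `p`-element of `G` fixing all irreducible characters of a normal `p'`-subgroup centralizes it
-/

set_option autoImplicit false

namespace Cfsg.Agent.Lib.S4848

universe u

/-- If `x` is a `p`-element of `G` fixing every irreducible character of a normal `p'`-subgroup
`N`, then `x` centralizes `N`. -/
theorem commute_of_forall_irr_fixed {G : Type u} [Group G] [Finite G] {p : ℕ} [Fact p.Prime]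
    (N : Subgroup G) [hN : N.Normal] (hcop : (Nat.card N).Coprime p) (x : G)
    (hx : ∃ k : ℕ, x ^ (p ^ k) = 1)
    (h : ∀ (θ : N → ℂ), Cfsg.IsIrrCharacter N θ → ∀ n : N,
      θ ⟨x * n * x⁻¹, hN.conj_mem n n.2 x⟩ = θ n) :
    ∀ n ∈ N, x * n = n * x := by
  classical
  obtain ⟨k, hk⟩ := hx
  let σ : N → N := fun n => ⟨x * n * x⁻¹, hN.conj_mem n n.2 x⟩
  have := Fintype.ofFinite N
  have hσ : ∀ n : N, IsConj (σ n) n := fun n =>
    Cfsg.Agent.Lib.Char.CompleteCor.isConj_of_forall_irr (fun χ => h χ.1 χ.2 n)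
  have hσpow : ∀ (m : ℕ) (n : N), ((σ^[m] n : N) : G) = x ^ m * n * (x ^ m)⁻¹ := by
    intro m n
    induction m with
    | zero => simp
    | succ m ih =>
      rw [Function.iterate_succ_apply']
      show x * ((σ^[m] n : N) : G) * x⁻¹ = _
      rw [ih, pow_succ', mul_inv_rev]
      group
  let T : Subgroup N := (Subgroup.centralizer ({x} : Set G)).subgroupOf N
  have hT : T = ⊤ := by
    apply Cfsg.Agent.Lib.Basic.JordanCover.eq_top_of_forall_conj_mem
    intro n
    have hmem : ∀ m : N, m ∈ MulAction.orbit (ConjAct N) n ↔ IsConj m n := by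
      intro m
      rw [ConjAct.orbit_eq_carrier_conjClasses, ConjClasses.mem_carrier_iff_mk_eq,
        ConjClasses.mk_eq_mk_iff_isConj]
    let A := ↥(MulAction.orbit (ConjAct N) n)
    let f : Function.End A := fun a => ⟨σ a.1, (hmem _).2 ((hσ a.1).trans ((hmem _).1 a.2))⟩
    have hfpow : ∀ (m : ℕ) (a : A), (((f ^ m) a : A) : N) = σ^[m] a.1 := by
      intro m a
      induction m with
      | zero => rfl
      | succ m ih =>
        rw [pow_succ', Function.iterate_succ_apply']
        show σ (((f ^ m) a : A) : N) = _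
        rw [ih]
    have hf : f ^ p ^ k = 1 := by
      funext a
      apply Subtype.ext
      apply Subtype.ext
      rw [hfpow, hσpow, hk]
      simp only [one_mul, inv_one, mul_one]
      rfl
    have hcard := Equiv.Perm.card_fixedPoints_modEq hf
    have hidx : (Fintype.card A).Coprime p := by
      have h1 := MulAction.index_stabilizer (ConjAct N) n
      have h2 : (MulAction.stabilizer (ConjAct N) n).index ∣ Nat.card (ConjAct N) :=
        Subgroup.index_dvd_card _
      have h3 : Nat.card (ConjAct N) = Nat.card N := rfl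
      have h4 : Fintype.card A = (MulAction.orbit (ConjAct N) n).ncard := by
        rw [Set.ncard_eq_toFinset_card', Set.toFinset_card]
      rw [h4, ← h1]
      exact Nat.Coprime.coprime_dvd_left (h3 ▸ h2) hcop
    have hne : Fintype.card f.fixedPoints ≠ 0 := by
      intro h0
      rw [h0] at hcard
      have hdvd : p ∣ Fintype.card A := (Nat.modEq_zero_iff_dvd).1 hcard
      have hp := (Fact.out : p.Prime)
      exact hp.one_lt.ne' (Nat.eq_one_of_dvd_coprimes hidx hdvd (dvd_refl p))
    obtain ⟨⟨a, ha⟩⟩ := Fintype.card_pos_iff.mp (Nat.pos_of_ne_zero hne)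
    obtain ⟨g, hg⟩ := isConj_iff.1 ((hmem _).1 a.2).symm
    refine ⟨g, ?_⟩
    rw [hg]
    show ((a.1 : N) : G) ∈ Subgroup.centralizer ({x} : Set G)
    rw [Subgroup.mem_centralizer_singleton_iff]
    have h5 : (σ a.1 : N) = a.1 := congrArg Subtype.val ha
    have h6 : x * ((a.1 : N) : G) * x⁻¹ = ((a.1 : N) : G) := congrArg Subtype.val h5
    rw [mul_inv_eq_iff_eq_mul] at h6
    exact h6.symm
  intro n hn
  have h7 : (⟨n, hn⟩ : N) ∈ T := hT ▸ Subgroup.mem_top _
  have h8 : n ∈ Subgroup.centralizer ({x} : Set G) := h7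
  rw [Subgroup.mem_centralizer_singleton_iff] at h8
  exact h8.symm

end Cfsg.Agent.Lib.S4848
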