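import Mathlib
import Cfsg.Prelude.Def_Characters
import Cfsg.Agent.Lib.Char.CompleteCor
import Cfsg.Agent.Lib.Char.Basic
import Cfsg.Agent.Lib.Char.PDerived

/-! Every non-central element of a finite `p`-group is a zero of some irreducible character. -/

set_option autoImplicit false

namespace Cfsg.Agent.Lib.S4848

open Cfsg

universe u

theorem exists_irr_zero_of_not_mem_center {Q : Type u} [Group Q] [Finite Q] {p : ℕ} [Fact p.Prime]
    (hQ : IsPGroup p Q) (x : Q) (hx : x ∉ Subgroup.center Q) :
    ∃ χ : Cfsg.IrrCharacter Q, (χ : Q → ℂ) x = 0 := by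
  classical
  induction' hn : Nat.card Q using Nat.strong_induction_on with n ih generalizing Q
  have : Nontrivial Q := by
    by_contra hnt
    rw [not_nontrivial_iff_subsingleton] at hnt
    exact hx (by rw [Subsingleton.elim x 1]; exact Subgroup.one_mem _)
  have hZnt : Nontrivial (Subgroup.center Q) := hQ.center_nontrivial
  by_cases h : ((x : Q) : Q ⧸ Subgroup.center Q) ∈ Subgroup.center (Q ⧸ Subgroup.center Q)
  · -- the image of `x` is central: a commutator with `x` is a nontrivial central element
    obtain ⟨g, hg⟩ : ∃ g : Q, g * x ≠ x * g := by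
      by_contra hall
      push Not at hall
      exact hx (Subgroup.mem_center_iff.2 hall)
    set z : Q := g * x * g⁻¹ * x⁻¹ with hz
    have hzZ : z ∈ Subgroup.center Q := by
      rw [← QuotientGroup.eq_one_iff]
      have h1 := Subgroup.mem_center_iff.1 h ((g : Q) : Q ⧸ Subgroup.center Q)
      have h2 : ((z : Q) : Q ⧸ Subgroup.center Q)
          = (g : Q ⧸ Subgroup.center Q) * (x : Q ⧸ Subgroup.center Q)
            * (g : Q ⧸ Subgroup.center Q)⁻¹ * (x : Q ⧸ Subgroup.center Q)⁻¹ := by
        simp [hz]
      rw [h2, h1]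
      group
    have hz1 : z ≠ 1 := by
      intro hz1
      apply hg
      have h3 : g * x * g⁻¹ = x := by
        have : g * x * g⁻¹ * x⁻¹ = 1 := hz1
        exact mul_inv_eq_one.1 this
      calc g * x = (g * x * g⁻¹) * g := by group
        _ = x * g := by rw [h3]
    obtain ⟨χ, hχ⟩ : ∃ χ : Cfsg.IrrCharacter Q, (χ : Q → ℂ) z ≠ (χ : Q → ℂ) 1 := by
      by_contra hall
      push Not at hall
      have := Fintype.ofFinite Q
      have hc : IsConj z 1 := Cfsg.Agent.Lib.Char.CompleteCor.isConj_of_forall_irr hall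
      exact hz1 (isConj_one_right.1 hc.symm)
    refine ⟨χ, Cfsg.Agent.Lib.Char.PDerived.eq_zero_of_conj_eq_central_mul χ.2 hzZ
      (y := g) (by rw [hz]; group) hχ⟩
  · -- otherwise pass to the central quotient
    have hlt : Nat.card (Q ⧸ Subgroup.center Q) < n := by
      rw [← hn]
      have hmul := Subgroup.card_mul_index (Subgroup.center Q)
      have hc : 1 < Nat.card (Subgroup.center Q) := Finite.one_lt_card
      have hidx : Subgroup.index (Subgroup.center Q) = Nat.card (Q ⧸ Subgroup.center Q) := rfl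
      rw [hidx] at hmul
      have hpos : 0 < Nat.card (Q ⧸ Subgroup.center Q) := Nat.card_pos
      rw [← hmul]
      nlinarith
    obtain ⟨χ, hχ⟩ := ih _ hlt (hQ.to_quotient _) _ h rfl
    refine ⟨⟨fun q => (χ : Q ⧸ Subgroup.center Q → ℂ) (QuotientGroup.mk' (Subgroup.center Q) q),
      Cfsg.Agent.Lib.Char.Basic.isIrrCharacter_comp_surjective χ.2 _ (QuotientGroup.mk'_surjective _)⟩, ?_⟩
    exact hχ

end Cfsg.Agent.Lib.S4848
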