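import Mathlib
import Cfsg.Agent.S4456
import Cfsg.Agent.S0191
import Cfsg.Agent.Lib.Char.Values2
import Cfsg.Agent.Lib.Char.CompleteCor
import Cfsg.Agent.Lib.Char.CliffordCorr
import Cfsg.Agent.Lib.Char.ItoMichler
import Cfsg.Agent.Lib.Char.Monomial
import Cfsg.Agent.Lib.Char.FrobeniusKernel
import Cfsg.Agent.Lib.Char.LinearChars
import Cfsg.Agent.Lib.Char.PDerived
import Cfsg.Agent.Lib.Basic.PCore
import Cfsg.Agent.Lib.S4848.PZero
import Cfsg.Agent.Lib.S4848.FixClass

set_option autoImplicit false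

namespace Cfsg.Agent.Lib.S4848

open Cfsg Cfsg.Agent.Lib.Char
open scoped Pointwise

universe u

/-- Clifford vanishing for a general irreducible character of a normal subgroup. -/
theorem exists_irr_zero_of_moved {G : Type u} [Group G] [Finite G] (N : Subgroup G) [hN : N.Normal]
    {ϑ : N → ℂ} (hϑ : IsIrrCharacter N ϑ) (g : G)
    (hg : ∀ x : G, x⁻¹ * g * x ∉ Monomial.inertiaOf N ϑ) :
    ∃ χ : Cfsg.IrrCharacter G, (χ : G → ℂ) g = 0 := by
  classical
  let _ : Fintype G := Fintype.ofFinite _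
  let _ : Fintype N := Fintype.ofFinite _
  obtain ⟨χ, hχ, hne⟩ := ItoMichler.exists_irr_over N hϑ
  let T : Subgroup G := Monomial.inertiaOf N ϑ
  let _ : Fintype T := Fintype.ofFinite _
  have hT := Monomial.mem_inertiaOf N ϑ
  have hcl := CompleteCor.isIrr_classFunction hϑ
  have hNT : N ≤ T := by
    intro y hy
    rw [show (y ∈ T) ↔ _ from hT y]
    intro n
    have := hcl n ⟨y, hy⟩
    exact this
  obtain ⟨ψ, hψ, hind, -⟩ := CliffordCorr.exists_indFun_eq N ϑ T hNT hϑ hT hχ hne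
  refine ⟨⟨χ, hχ⟩, ?_⟩
  show χ g = 0
  rw [← hind]
  exact FrobeniusKernel.indFun_eq_zero_of_notMem _ hg

variable {G : Type u} [Group G] [Finite G] {p : ℕ} [hp : Fact p.Prime]

/-- The vanishing hypothesis, element form. -/
def VanP (p : ℕ) (G : Type u) [Group G] : Prop :=
  ∀ g : G, (∃ χ : Cfsg.IrrCharacter G, (χ : G → ℂ) g = 0) → ∃ m : ℕ, 1 ≤ m ∧ orderOf g = p ^ m

theorem eq_one_of_mem_of_pelt {K : Subgroup G} (hKc : (Nat.card K).Coprime p) {c : G} (hc : c ∈ K)
    {M : ℕ} (hM : c ^ (p ^ M) = 1) : c = 1 := by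
  have h1 : orderOf c ∣ p ^ M := orderOf_dvd_of_pow_eq_one hM
  have h2 : orderOf c ∣ Nat.card K := by
    have := orderOf_dvd_natCard (⟨c, hc⟩ : K)
    rwa [Subgroup.orderOf_mk] at this
  have h3 : (orderOf c).Coprime (p ^ M) :=
    Nat.Coprime.pow_right _ (Nat.Coprime.coprime_dvd_left h2 hKc)
  have h4 : orderOf c = 1 := Nat.Coprime.eq_one_of_dvd h3 h1
  exact orderOf_eq_one_iff.mp h4

theorem eq_one_of_vanish_comm (hvan : VanP p G) {K : Subgroup G} (hKc : (Nat.card K).Coprime p)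
    {x c : G} (hx : ∃ a : ℕ, x ^ (p ^ a) = 1) (hc : c ∈ K) (hxc : x * c = c * x)
    (χ : Cfsg.IrrCharacter G) (h0 : (χ : G → ℂ) (x * c) = 0) : c = 1 := by
  obtain ⟨m, -, hord⟩ := hvan (x * c) ⟨χ, h0⟩
  obtain ⟨a, ha⟩ := hx
  have hcomm : Commute x c := hxc
  have h1 : (x * c) ^ (p ^ (a + m)) = 1 := by
    apply orderOf_dvd_iff_pow_eq_one.mp
    rw [hord]
    exact pow_dvd_pow _ (Nat.le_add_left _ _)
  have h2 : x ^ (p ^ (a + m)) = 1 := by
    rw [pow_add, pow_mul, ha, one_pow]
  rw [hcomm.mul_pow, h2, one_mul] at h1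
  exact eq_one_of_mem_of_pelt hKc hc h1

theorem isPGroup_quot {K : Subgroup G} [K.Normal] (hKi : ∃ k : ℕ, K.index = p ^ k) : IsPGroup p (G ⧸ K) := by
  obtain ⟨k, hk⟩ := hKi
  exact IsPGroup.of_card (n := k) (by rw [← hk]; rfl)

theorem eq_one_of_not_central (hvan : VanP p G) {K : Subgroup G} [hKn : K.Normal]
    (hKc : (Nat.card K).Coprime p) (hKi : ∃ k : ℕ, K.index = p ^ k)
    {x c : G} (hx : ∃ a : ℕ, x ^ (p ^ a) = 1) (hc : c ∈ K) (hxc : x * c = c * x)
    (hnc : QuotientGroup.mk' K x ∉ Subgroup.center (G ⧸ K)) : c = 1 := by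
  obtain ⟨l, hl⟩ := exists_irr_zero_of_not_mem_center (isPGroup_quot (p := p) hKi) _ hnc
  have hirr := Basic.isIrrCharacter_comp_surjective l.2 (QuotientGroup.mk' K)
    (QuotientGroup.mk'_surjective K)
  refine eq_one_of_vanish_comm hvan hKc hx hc hxc ⟨_, hirr⟩ ?_
  show (l : G ⧸ K → ℂ) (QuotientGroup.mk' K (x * c)) = 0
  have h1 : QuotientGroup.mk' K c = 1 := (QuotientGroup.eq_one_iff c).mpr hc
  rw [map_mul, h1, mul_one]
  exact hl

theorem eq_one_of_not_commute (hvan : VanP p G) {K : Subgroup G} [hKn : K.Normal]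
    (hKc : (Nat.card K).Coprime p)
    {x c : G} (hx : ∃ a : ℕ, x ^ (p ^ a) = 1) (hc : c ∈ K) (hxc : x * c = c * x)
    (hcen : QuotientGroup.mk' K x ∈ Subgroup.center (G ⧸ K))
    (hn : ¬ ∀ n ∈ K, x * n = n * x) : c = 1 := by
  classical
  have : ∃ (θ : K → ℂ), Cfsg.IsIrrCharacter K θ ∧ ∃ n : K,
      θ ⟨x * n * x⁻¹, hKn.conj_mem n n.2 x⟩ ≠ θ n := by
    by_contra hcon
    push Not at hcon
    exact hn (commute_of_forall_irr_fixed K hKc x hx hcon)
  obtain ⟨θ, hθ, n, hne⟩ := this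
  have hcl := CompleteCor.isIrr_classFunction hθ
  obtain ⟨χ, h0⟩ := exists_irr_zero_of_moved K hθ (x * c) (by
    intro y hy
    rw [Monomial.mem_inertiaOf] at hy
    set t := y⁻¹ * (x * c) * y with ht
    have hl : x⁻¹ * t ∈ K := by
      rw [← QuotientGroup.eq_one_iff, ← QuotientGroup.mk'_apply]
      have h1 : QuotientGroup.mk' K c = 1 := (QuotientGroup.eq_one_iff c).mpr hc
      have h2 := Subgroup.mem_center_iff.mp hcen (QuotientGroup.mk' K y)
      rw [ht]
      simp only [map_mul, map_inv, h1, mul_one]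
      have h7 : (QuotientGroup.mk' K y)⁻¹ * QuotientGroup.mk' K x * QuotientGroup.mk' K y
          = QuotientGroup.mk' K x := by
        rw [mul_assoc, ← h2]; group
      rw [h7]; group
    set l := x⁻¹ * t with hldef
    have htl : t = x * l := by rw [hldef]; group
    let n' : K := ⟨l⁻¹ * n * l, by simpa using hKn.conj_mem n n.2 l⁻¹⟩
    have h3 := hy n'
    have h4 : (⟨t * (n' : G) * t⁻¹, hKn.conj_mem (n' : G) n'.2 t⟩ : K)
        = ⟨x * n * x⁻¹, hKn.conj_mem n n.2 x⟩ := by
      apply Subtype.ext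
      show t * (l⁻¹ * n * l) * t⁻¹ = x * n * x⁻¹
      rw [htl]
      group
    rw [h4] at h3
    apply hne
    rw [h3]
    have h5 := hcl n ⟨l⁻¹, K.inv_mem hl⟩
    have h6 : (⟨l⁻¹, K.inv_mem hl⟩ : K) * n * (⟨l⁻¹, K.inv_mem hl⟩ : K)⁻¹ = n' := by
      apply Subtype.ext
      show l⁻¹ * n * l⁻¹⁻¹ = l⁻¹ * n * l
      simp
    rw [h6] at h5
    exact h5)
  exact eq_one_of_vanish_comm hvan hKc hx hc hxc χ h0

/-- Central elements never vanish. -/
theorem irr_ne_zero_of_center (χ : Cfsg.IrrCharacter G) {z : G} (hz : z ∈ Subgroup.center G) :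
    (χ : G → ℂ) z ≠ 0 := by
  obtain ⟨c, hc, hn⟩ := PDerived.exists_central_scalar χ.2 hz
  have h1 := hc 1
  rw [mul_one] at h1
  rw [h1]
  have hc0 : c ≠ 0 := by
    intro h
    rw [h] at hn
    simp at hn
  have hd : (χ : G → ℂ) 1 ≠ 0 := by
    exact Cfsg.Agent.Lib.Char.Ortho.irr_apply_one_ne_zero χ.2
  exact mul_ne_zero hc0 hd

/-- A nonlinear irreducible character of a noncommutative group. -/
theorem exists_nonlinear (hna : ¬ IsMulCommutative G) :
    ∃ χ : Cfsg.IrrCharacter G, Cfsg.charDegree (χ : G → ℂ) ≠ 1 := by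
  by_contra hcon
  push Not at hcon
  apply hna
  refine ⟨⟨fun a b => ?_⟩⟩
  let _ : Fintype G := Fintype.ofFinite _
  have hall : ∀ χ : Cfsg.IrrCharacter G, ∃ φ : G →* ℂˣ, (χ : G → ℂ) = fun g => ((φ g : ℂˣ) : ℂ) := by
    intro χ
    have hc := Basic.isCharacter_of_isIrrCharacter χ.2
    apply LinearChars.exists_hom_of_isCharacter_one hc
    have h1 := Values.IsCharacter.charDegree_cast hc
    rw [hcon χ] at h1
    simpa using h1.symm
  have h := CompleteCor.isConj_of_forall_irr (g := a * b * a⁻¹ * b⁻¹) (h := 1) (fun χ => by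
    obtain ⟨φ, hφ⟩ := hall χ
    rw [hφ]
    simp only [map_mul, map_inv, map_one, Units.val_one]
    congr 1
    have : φ a * φ b * (φ a)⁻¹ * (φ b)⁻¹ = 1 := by
      rw [mul_comm (φ a) (φ b)]; group
    rw [this]; simp)
  have h2 : a * b * a⁻¹ * b⁻¹ = 1 := by
    exact isConj_one_right.mp h.symm
  have h3 : a * b = b * a := by
    calc a * b = (a * b * a⁻¹ * b⁻¹) * (b * a) := by group
      _ = b * a := by rw [h2, one_mul]
  exact h3

/-- If all `p`-elements are central, a noncommutative group cannot have all zeros at `p`-elements. -/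
theorem false_of_pelts_central (hna : ¬ IsMulCommutative G) (hvan : VanP p G)
    (h : ∀ x : G, (∃ a : ℕ, x ^ (p ^ a) = 1) → x ∈ Subgroup.center G) : False := by
  obtain ⟨χ, hχ⟩ := exists_nonlinear hna
  classical
  -- the zero
  obtain ⟨n, ρ, hirr, hρ⟩ := χ.2
  have hdeg : Cfsg.charDegree (χ : G → ℂ) = n := by
    have hc := Basic.isCharacter_of_isIrrCharacter χ.2
    apply Values.IsCharacter.charDegree_eq hc
    rw [← hρ, Representation.char_one]
    simp
  have hn0 : n ≠ 0 := by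
    rintro rfl
    apply Cfsg.Agent.Lib.Char.Ortho.irr_apply_one_ne_zero χ.2
    rw [← hρ, Representation.char_one]
    simp
  have hn1 : 1 < Module.finrank ℂ (Fin n → ℂ) := by
    simp only [Module.finrank_fin_fun]
    rw [hdeg] at hχ
    omega
  obtain ⟨g, hg⟩ := Cfsg.Agent.S0191.result ρ hn1
  have hg0 : (χ : G → ℂ) g = 0 := by rw [← hρ]; exact hg
  obtain ⟨m, -, hord⟩ := hvan g ⟨χ, hg0⟩
  have hc := h g ⟨m, by rw [← hord]; exact pow_orderOf_eq_one g⟩
  exact irr_ne_zero_of_center χ hc hg0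


/-- The main structure. -/
theorem main (hna : ¬ IsMulCommutative G) (hvan : VanP p G) :
    IsPGroup p G ∨ (Subgroup.center G = Cfsg.pCore p G ∧
      ∃ H : Subgroup (G ⧸ Subgroup.center G), Cfsg.IsFrobeniusComplement H ∧ IsPGroup p H) := by
  classical
  have hpp : p.Prime := hp.out
  have hdeg : ∀ χ : Cfsg.IrrCharacter G, Cfsg.charDegree (χ : G → ℂ) ≠ 1 →
      p ∣ Cfsg.charDegree (χ : G → ℂ) := by
    intro χ hχ
    obtain ⟨n, ρ, hirr, hρ⟩ := χ.2
    have hc := Basic.isCharacter_of_isIrrCharacter χ.2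
    have hd : Cfsg.charDegree (χ : G → ℂ) = n := by
      apply Values.IsCharacter.charDegree_eq hc
      rw [← hρ, Representation.char_one]
      simp
    have hn0 : n ≠ 0 := by
      rintro rfl
      apply Cfsg.Agent.Lib.Char.Ortho.irr_apply_one_ne_zero χ.2
      rw [← hρ, Representation.char_one]
      simp
    have hn1 : 1 < Module.finrank ℂ (Fin n → ℂ) := by
      simp only [Module.finrank_fin_fun]
      rw [hd] at hχ
      omega
    obtain ⟨g, hg⟩ := Cfsg.Agent.S0191.result ρ hn1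
    have hg0 : (χ : G → ℂ) g = 0 := by rw [← hρ]; exact hg
    obtain ⟨m, -, hord⟩ := hvan g ⟨χ, hg0⟩
    exact Values2.dvd_degree_of_vanish_pelement p hpp _ hc g ⟨m, hord⟩ hg0
  obtain ⟨K, hKn, hKc, hKi⟩ := Cfsg.Agent.S4456.result p hpp hdeg
  haveI := hKn
  -- the quotient is a `p`-group
  have hQ : IsPGroup p (G ⧸ K) := isPGroup_quot (p := p) hKi
  let mk := QuotientGroup.mk' K
  have hmkK : ∀ c, mk c = 1 ↔ c ∈ K := fun c => QuotientGroup.eq_one_iff c
  -- `K` has no nontrivial `p`-elements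
  have hK1 : ∀ c ∈ K, ∀ M : ℕ, c ^ (p ^ M) = 1 → c = 1 := fun c hc M hM =>
    eq_one_of_mem_of_pelt hKc hc hM
  -- the key dichotomy
  have hH : ∀ x c : G, (∃ a : ℕ, x ^ (p ^ a) = 1) → c ∈ K → x * c = c * x → c ≠ 1 →
      mk x ∈ Subgroup.center (G ⧸ K) ∧ ∀ n ∈ K, x * n = n * x := by
    intro x c hx hc hxc hne
    have h1 : mk x ∈ Subgroup.center (G ⧸ K) := by
      by_contra h
      exact hne (eq_one_of_not_central hvan hKc hKi hx hc hxc h)
    refine ⟨h1, ?_⟩
    by_contra h
    exact hne (eq_one_of_not_commute hvan hKc hx hc hxc h1 h)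
  -- factorization through any Sylow subgroup
  have hfac : ∀ (P : Sylow p G) (g : G), ∃ k ∈ K, ∃ w ∈ (P : Subgroup G), g = k * w := by
    intro P g
    have hsurj : Function.Surjective mk := QuotientGroup.mk'_surjective K
    have htop : (P : Subgroup G).map mk = ⊤ := by
      let Q := P.mapSurjective hsurj
      have h1 : (Q : Subgroup (G ⧸ K)) = (P : Subgroup G).map mk := rfl
      rw [← h1]
      exact (Q.is_maximal' (hQ.to_subgroup ⊤) le_top).symm
    have hmem : mk g ∈ (P : Subgroup G).map mk := by rw [htop]; trivial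
    obtain ⟨w, hw, hwg⟩ := hmem
    refine ⟨g * w⁻¹, ?_, w, hw, by group⟩
    rw [← hmkK, map_mul, map_inv, hwg, mul_inv_cancel]
  -- elements of a Sylow subgroup are `p`-elements
  have hPE : ∀ (P : Sylow p G) (w : G), w ∈ (P : Subgroup G) → ∃ a : ℕ, w ^ (p ^ a) = 1 := by
    intro P w hw
    obtain ⟨a, ha⟩ := P.isPGroup' ⟨w, hw⟩
    refine ⟨a, ?_⟩
    have := congrArg Subtype.val ha
    simpa using this
  -- a `p`-element lies in a Sylow subgroup
  have hSy : ∀ x : G, (∃ a : ℕ, x ^ (p ^ a) = 1) → ∃ P : Sylow p G, x ∈ (P : Subgroup G) := by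
    intro x hx
    have h1 : IsPGroup p (Subgroup.zpowers x) := by
      obtain ⟨a, ha⟩ := hx
      rw [IsPGroup.iff_card]
      obtain ⟨j, -, hj⟩ := (Nat.dvd_prime_pow hpp).mp (orderOf_dvd_of_pow_eq_one ha)
      exact ⟨j, by rw [Nat.card_zpowers, hj]⟩
    obtain ⟨P, hP⟩ := h1.exists_le_sylow
    exact ⟨P, hP (Subgroup.mem_zpowers x)⟩
  -- `K ∩ P = 1`
  have hKP : ∀ (P : Sylow p G) (c : G), c ∈ K → c ∈ (P : Subgroup G) → c = 1 := by
    intro P c hc hcP
    obtain ⟨a, ha⟩ := hPE P c hcP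
    exact hK1 c hc a ha
  -- an element central mod `K`, inside a Sylow, centralizing `K`, is central
  have hcentral : ∀ x : G, (∃ a : ℕ, x ^ (p ^ a) = 1) → mk x ∈ Subgroup.center (G ⧸ K) →
      (∀ n ∈ K, x * n = n * x) → x ∈ Subgroup.center G := by
    intro x hx hc hn
    obtain ⟨P, hxP⟩ := hSy x hx
    rw [Subgroup.mem_center_iff]
    intro g
    obtain ⟨k, hk, w, hw, rfl⟩ := hfac P g
    have h1 : x * w * x⁻¹ * w⁻¹ = 1 := by
      apply hKP P
      · rw [← hmkK]
        have := Subgroup.mem_center_iff.mp hc (mk w)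
        simp only [map_mul, map_inv]
        rw [← this]
        group
      · exact P.1.mul_mem (P.1.mul_mem (P.1.mul_mem hxP hw) (P.1.inv_mem hxP)) (P.1.inv_mem hw)
    have h2 : x * w = w * x := by
      calc x * w = (x * w * x⁻¹ * w⁻¹) * (w * x) := by group
        _ = w * x := by rw [h1, one_mul]
    calc k * w * x = k * (w * x) := by group
      _ = k * (x * w) := by rw [h2]
      _ = (k * x) * w := by group
      _ = (x * k) * w := by rw [hn k hk]
      _ = x * (k * w) := by group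
  by_cases hKbot : K = ⊥
  · left
    obtain ⟨k, hk⟩ := hKi
    subst hKbot
    refine IsPGroup.of_card (n := k) ?_
    rw [← hk, Subgroup.index_bot]
  right
  -- a nontrivial element of `K`
  obtain ⟨c0, hc0, hc01⟩ : ∃ c ∈ K, c ≠ 1 := by
    by_contra hcon
    push Not at hcon
    exact hKbot ((Subgroup.eq_bot_iff_forall K).mpr hcon)
  -- `K ∩ Z(G) = 1`
  have hKZ : ∀ a ∈ K, a ∈ Subgroup.center G → a = 1 := by
    intro a ha haz
    by_contra hne
    apply false_of_pelts_central hna hvan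
    intro x hx
    obtain ⟨h1, h2⟩ := hH x a hx ha (Subgroup.mem_center_iff.mp haz x) hne
    exact hcentral x hx h1 h2
  -- `Z(G) ≤ O_p(G)`
  have hZp : ∀ z ∈ Subgroup.center G, ∃ a : ℕ, z ^ (p ^ a) = 1 := by
    intro z hz
    obtain ⟨k, hk⟩ := hKi
    refine ⟨k, ?_⟩
    apply hKZ _ _ (Subgroup.pow_mem _ hz _)
    rw [← hmkK, map_pow]
    have : Nat.card (G ⧸ K) = p ^ k := by rw [← hk]; rfl
    rw [← this]
    exact pow_card_eq_one'
  have hZO : Subgroup.center G = Cfsg.pCore p G := by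
    apply le_antisymm
    · apply Cfsg.Agent.Lib.Basic.PCore.le_pCore inferInstance
      intro z
      obtain ⟨a, ha⟩ := hZp z z.2
      exact ⟨a, Subtype.ext (by simpa using ha)⟩
    · intro y hy
      have hO : (Cfsg.pCore p G).Normal := inferInstance
      have hpe : ∃ a : ℕ, y ^ (p ^ a) = 1 := by
        obtain ⟨a, ha⟩ := Cfsg.Agent.Lib.Basic.PCore.pCore_isPGroup p (G := G) ⟨y, hy⟩
        exact ⟨a, by simpa using congrArg Subtype.val ha⟩
      have hinter : ∀ w, w ∈ K → w ∈ Cfsg.pCore p G → w = 1 := by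
        intro w hw hw'
        obtain ⟨a, ha⟩ := Cfsg.Agent.Lib.Basic.PCore.pCore_isPGroup p (G := G) ⟨w, hw'⟩
        exact hK1 w hw a (by simpa using congrArg Subtype.val ha)
      have hcy : ∀ n ∈ K, y * n = n * y := by
        intro n hn
        have h1 : y * n * y⁻¹ * n⁻¹ = 1 := by
          apply hinter
          · exact K.mul_mem (hKn.conj_mem n hn y) (K.inv_mem hn)
          · have h9 : y * n * y⁻¹ * n⁻¹ = y * (n * y⁻¹ * n⁻¹) := by group
            rw [h9]
            exact (Cfsg.pCore p G).mul_mem hy (hO.conj_mem _ ((Cfsg.pCore p G).inv_mem hy) n)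
        calc y * n = (y * n * y⁻¹ * n⁻¹) * (n * y) := by group
          _ = n * y := by rw [h1, one_mul]
      obtain ⟨h1, -⟩ := hH y c0 hpe hc0 (hcy c0 hc0) hc01
      rw [Subgroup.mem_center_iff]
      intro g
      have h2 : y * g * y⁻¹ * g⁻¹ = 1 := by
        apply hinter
        · rw [← hmkK]
          have := Subgroup.mem_center_iff.mp h1 (mk g)
          simp only [map_mul, map_inv]
          rw [← this]
          group
        · have h9 : y * g * y⁻¹ * g⁻¹ = y * (g * y⁻¹ * g⁻¹) := by group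
          rw [h9]
          exact (Cfsg.pCore p G).mul_mem hy (hO.conj_mem _ ((Cfsg.pCore p G).inv_mem hy) g)
      calc g * y = (y * g * y⁻¹ * g⁻¹)⁻¹ * (y * g) := by group
        _ = y * g := by rw [h2, inv_one, one_mul]
  refine ⟨hZO, ?_⟩
  obtain ⟨P⟩ : Nonempty (Sylow p G) := inferInstance
  have hZP : Subgroup.center G ≤ (P : Subgroup G) := by
    rw [hZO]; exact Cfsg.Agent.Lib.Basic.PCore.pCore_le_sylow P
  let π := QuotientGroup.mk' (Subgroup.center G)
  have hπ : ∀ z, π z = 1 ↔ z ∈ Subgroup.center G := fun z => QuotientGroup.eq_one_iff z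
  refine ⟨(P : Subgroup G).map π, ⟨?_, ?_, ?_⟩, P.isPGroup'.map π⟩
  · -- not trivial
    intro hbot
    apply false_of_pelts_central hna hvan
    intro x hx
    obtain ⟨Q, hxQ⟩ := hSy x hx
    obtain ⟨g, rfl⟩ := MulAction.exists_smul_eq G P Q
    have hPZ : (P : Subgroup G) ≤ Subgroup.center G := by
      intro w hw
      rw [← hπ]
      have : π w ∈ (P : Subgroup G).map π := ⟨w, hw, rfl⟩
      rw [hbot] at this
      exact this
    change x ∈ (MulAut.conj g • (P : Subgroup G)) at hxQ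
    rw [Subgroup.mem_smul_pointwise_iff_exists] at hxQ
    obtain ⟨s, hs, rfl⟩ := hxQ
    have hsc := hPZ hs
    have : MulAut.conj g • s = s := by
      simp only [MulAut.smul_def, MulAut.conj_apply]
      rw [Subgroup.mem_center_iff.mp hsc g]
      group
    rw [this]
    exact hsc
  · -- not everything
    intro htop
    have hc0P : c0 ∈ (P : Subgroup G) := by
      have : π c0 ∈ (P : Subgroup G).map π := by rw [htop]; trivial
      obtain ⟨w, hw, hwc⟩ := this
      have h1 : w⁻¹ * c0 ∈ Subgroup.center G := by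
        rw [← hπ, map_mul, map_inv, hwc, inv_mul_cancel]
      have := P.1.mul_mem hw (hZP h1)
      simpa using this
    exact hc01 (hKP P c0 hc0 hc0P)
  · -- malnormal
    intro gbar hg
    rw [eq_bot_iff]
    intro ybar hy
    rw [Subgroup.mem_inf] at hy
    obtain ⟨⟨a, ha, rfl⟩, hy2⟩ := hy
    rw [Subgroup.mem_bot]
    obtain ⟨g, rfl⟩ := QuotientGroup.mk'_surjective (Subgroup.center G) gbar
    rw [Subgroup.mem_smul_pointwise_iff_exists] at hy2
    obtain ⟨bbar, ⟨b, hb, rfl⟩, hb2⟩ := hy2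
    simp only [MulAut.smul_def, MulAut.conj_apply] at hb2
    -- `g b g⁻¹` and `a` agree modulo the centre
    have hz : a⁻¹ * (g * b * g⁻¹) ∈ Subgroup.center G := by
      rw [← hπ]
      simp only [map_mul, map_inv]
      show (π a)⁻¹ * (π g * π b * (π g)⁻¹) = 1
      rw [hb2, inv_mul_cancel]
    have ha' : g * b * g⁻¹ ∈ (P : Subgroup G) := by
      have := P.1.mul_mem ha (hZP hz)
      simpa using this
    obtain ⟨c, hc, h, hh, rfl⟩ := hfac P g
    have hcne : c ≠ 1 := by
      rintro rfl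
      apply hg
      exact ⟨h, hh, by rw [one_mul]⟩
    -- `b' = h b h⁻¹`, `a' = c b' c⁻¹`
    set b' := h * b * h⁻¹ with hb'
    have hb'P : b' ∈ (P : Subgroup G) := P.1.mul_mem (P.1.mul_mem hh hb) (P.1.inv_mem hh)
    set a' := c * h * b * (c * h)⁻¹ with ha'def
    have ha'eq : a' = c * b' * c⁻¹ := by rw [ha'def, hb']; group
    have hsame : a' = b' := by
      have h1 : a'⁻¹ * b' = 1 := by
        apply hKP P
        · rw [← hmkK, ha'eq]
          have h2 : mk c = 1 := (hmkK c).mpr hc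
          simp only [map_mul, map_inv, h2, one_mul, inv_one, mul_one]
          group
        · exact P.1.mul_mem (P.1.inv_mem ha') hb'P
      calc a' = a' * (a'⁻¹ * b') := by rw [h1, mul_one]
        _ = b' := by group
    have hcomm : a' * c = c * a' := by
      have h1 : c * a' * c⁻¹ = a' := by
        have h0 := ha'eq
        rw [← hsame] at h0
        exact h0.symm
      calc a' * c = (c * a' * c⁻¹) * c := by rw [h1]
        _ = c * a' := by group
    obtain ⟨h1, h2⟩ := hH a' c (hPE P a' ha') hc hcomm hcne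
    have hcent := hcentral a' (hPE P a' ha') h1 h2
    -- finish: `a ≡ a'` modulo the centre
    have h3 : π a = π a' := by
      have h4 : (π a)⁻¹ * π a' = 1 := by
        have h5 := (hπ _).mpr hz
        rw [map_mul, map_inv] at h5
        exact h5
      calc π a = π a * ((π a)⁻¹ * π a') := by rw [h4, mul_one]
        _ = π a' := by group
    rw [h3]
    exact (hπ a').mpr hcent

end Cfsg.Agent.Lib.S4848
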